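import Cfsg.Agent.H618.KS.Nine
import Cfsg.Agent.H850.KS.Hyp

/-!
# S4577: the case of inertial index nine, as `PA4Nine` of `H850/KS/Hyp.lean`
-/

set_option autoImplicit false

open Cfsg

namespace Cfsg.Agent.H618.KS

universe u

theorem pa4Nine : Cfsg.Agent.H850.KS.PA4Nine.{u} := by
  intro G _ _ M hM B hB D hD hE c hc T hT h9
  exact heights_nine hM hB hD hE c hc T hT h9

end Cfsg.Agent.H618.KS
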